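import Cfsg.Agent.Invol.KleinFour
import Cfsg.Agent.Invol.IndexTwo
import Cfsg.Agent.Transfer.Frobenius
import Cfsg.Agent.Signalizer.Generation
import Cfsg.Agent.LocalEven.CoreGeneration
import Mathlib.GroupTheory.Abelianization.Defs
import Mathlib.GroupTheory.GroupAction.Iwasawa

/-!
# Groups in which every element order divisible by `2` or by the odd prime `p` lies in `{2, p, 2p}`

The basic centraliser facts, and the key lemma: with a Klein four Sylow 2-subgroup `S` permuted by
an element `x` of order 3, every `p`-subgroup normalised by `S` and `x` is centralised by `S`.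
-/

set_option autoImplicit false

namespace Cfsg.Agent.Spec2P

open Subgroup

/-- Even element orders are `2` or `2p`, orders divisible by `p` are `p` or `2p`. -/
structure Hyp (G : Type*) [Group G] (p : ℕ) : Prop where
  hp : p.Prime
  hodd : Odd p
  two : ∀ x : G, 2 ∣ orderOf x → orderOf x = 2 ∨ orderOf x = 2 * p
  pel : ∀ x : G, p ∣ orderOf x → orderOf x = p ∨ orderOf x = 2 * p

variable {G : Type*} [Group G] [Finite G] {p : ℕ}

theorem odd_orderOf_of_mem {R : Subgroup G} (hR : Odd (Nat.card R)) {g : G} (hg : g ∈ R) :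
    Odd (orderOf g) :=
  hR.of_dvd_nat (Subgroup.orderOf_dvd_natCard R hg)

theorem odd_card_of_forall {R : Subgroup G} (hR : ∀ g ∈ R, Odd (orderOf g)) :
    Odd (Nat.card R) := by
  rw [← Nat.not_even_iff_odd]
  intro he
  obtain ⟨x, hx⟩ := exists_prime_orderOf_dvd_card' (G := R) 2 he.two_dvd
  exact Nat.not_even_iff_odd.2 (hR x x.2) (by rw [Subgroup.orderOf_coe, hx]; exact even_two)

theorem eq_one_of_sq {R : Subgroup G} (hR : Odd (Nat.card R)) {g : G} (hg : g ∈ R)
    (h2 : g * g = 1) : g = 1 := by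
  have h1 : orderOf g ∣ 2 := orderOf_dvd_of_pow_eq_one (by rw [pow_two, h2])
  rcases (Nat.dvd_prime Nat.prime_two).1 h1 with e | e
  · exact orderOf_eq_one_iff.1 e
  · have := odd_orderOf_of_mem hR hg
    rw [e] at this
    exact absurd this (by decide)

namespace Hyp

/-- An element of odd order centralising an involution has order `1` or `p`. -/
theorem pow_p_of_invol (h : Hyp G p) {t y : G} (ht : orderOf t = 2) (hc : Commute t y)
    (hy : Odd (orderOf y)) : y ^ p = 1 := by
  have ho : orderOf (t * y) = 2 * orderOf y := by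
    rw [hc.orderOf_mul_eq_mul_orderOf_of_coprime (by rw [ht]; exact hy.coprime_two_left), ht]
  rcases h.two (t * y) (by rw [ho]; exact dvd_mul_right 2 _) with e | e
  · rw [ho] at e
    have : orderOf y = 1 := by omega
    rw [orderOf_eq_one_iff.1 this, one_pow]
  · rw [ho] at e
    have : orderOf y = p := by omega
    rw [← this, pow_orderOf_eq_one]

/-- An element of odd order centralising an element of order `p` has order `1` or `p`. -/
theorem pow_p_of_pel (h : Hyp G p) {f y : G} (hf : orderOf f = p) (hc : Commute f y)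
    (hy : Odd (orderOf y)) : y ^ p = 1 := by
  by_cases hd : p ∣ orderOf y
  · rcases h.pel y hd with e | e
    · rw [← e, pow_orderOf_eq_one]
    · rw [e] at hy
      exact absurd hy (by simp)
  · have ho : orderOf (f * y) = p * orderOf y := by
      rw [hc.orderOf_mul_eq_mul_orderOf_of_coprime
        (by rw [hf]; exact (h.hp.coprime_iff_not_dvd).2 hd), hf]
    rcases h.pel (f * y) (by rw [ho]; exact dvd_mul_right p _) with e | e
    · rw [ho] at e
      have : orderOf y = 1 := by
        have h1 : p * orderOf y = p * 1 := by rw [mul_one]; exact e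
        exact Nat.eq_of_mul_eq_mul_left h.hp.pos h1
      rw [orderOf_eq_one_iff.1 this, one_pow]
    · rw [ho, mul_comm 2 p] at e
      have := Nat.eq_of_mul_eq_mul_left h.hp.pos e
      rw [this] at hy
      exact absurd hy (by decide)

theorem isPGroup_of_pow (h : Hyp G p) {R : Subgroup G} (hR : ∀ g ∈ R, g ^ p = 1) :
    IsPGroup p R := fun g => ⟨1, Subtype.ext (by simpa using hR g g.2)⟩

theorem orderOf_eq (h : Hyp G p) {g : G} (hg : g ^ p = 1) (h1 : g ≠ 1) : orderOf g = p :=
  haveI := Fact.mk h.hp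
  orderOf_eq_prime hg h1

theorem odd_card_of_pGroup (h : Hyp G p) {X : Subgroup G} (hX : IsPGroup p X) :
    Odd (Nat.card X) := by
  haveI := Fact.mk h.hp
  obtain ⟨k, hk⟩ := hX.exists_card_eq
  rw [hk]
  exact h.hodd.pow

theorem pow_p_of_mem_pGroup (h : Hyp G p) {X : Subgroup G} (hX : IsPGroup p X) {g : G}
    (hg : g ∈ X) : g ^ p = 1 := by
  by_cases h1 : g = 1
  · rw [h1, one_pow]
  obtain ⟨k, hk⟩ := hX ⟨g, hg⟩
  have hd : orderOf g ∣ p ^ k :=
    orderOf_dvd_of_pow_eq_one (by simpa using congrArg Subtype.val hk)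
  obtain ⟨i, -, hi⟩ := (Nat.dvd_prime_pow h.hp).1 hd
  have hi0 : i ≠ 0 := by
    rintro rfl
    exact h1 (orderOf_eq_one_iff.1 (by simpa using hi))
  rcases h.pel g (by rw [hi]; exact dvd_pow_self p hi0) with e | e
  · rw [← e, pow_orderOf_eq_one]
  · have := odd_orderOf_of_mem (h.odd_card_of_pGroup hX) hg
    rw [e] at this
    exact absurd this (by simp)

end Hyp

/-- An element of order `3` permuting the three involutions of the four group `S`. -/
structure Cyc (S : Subgroup G) (x : G) : Prop where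
  ord : orderOf x = 3
  mem : x ∈ normalizer (S : Set G)
  move : ∀ u ∈ S, u ≠ 1 → x * u * x⁻¹ ≠ u

section Four

variable {S : Sylow 2 G} (hS : IsKleinFour (S : Subgroup G))
include hS

theorem mul_self_eq {a : G} (ha : a ∈ (S : Subgroup G)) : a * a = 1 := by
  by_cases h1 : a = 1
  · simp [h1]
  · rw [← pow_two, ← Invol.klein_ne_one S ha hS h1, pow_orderOf_eq_one]

theorem inv_eq {a : G} (ha : a ∈ (S : Subgroup G)) : a⁻¹ = a :=
  inv_eq_of_mul_eq_one_right (mul_self_eq hS ha)

theorem comm {a b : G} (ha : a ∈ (S : Subgroup G)) (hb : b ∈ (S : Subgroup G)) :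
    a * b = b * a := by
  have := (Invol.klein_comm S hS).is_comm.comm ⟨a, ha⟩ ⟨b, hb⟩
  exact congrArg Subtype.val this

theorem four_cases {u v w : G} (hu : u ∈ (S : Subgroup G)) (hv : v ∈ (S : Subgroup G))
    (hu1 : u ≠ 1) (hv1 : v ≠ 1) (huv : u ≠ v) (hw : w ∈ (S : Subgroup G)) :
    w = 1 ∨ w = u ∨ w = v ∨ w = u * v := by
  classical
  have hne : u * v ≠ 1 := fun e => huv (by rw [eq_inv_of_mul_eq_one_left e, inv_eq hS hv])
  have hne1 : u * v ≠ u := fun e => hv1 (mul_eq_left.1 e)
  have hne2 : u * v ≠ v := fun e => hu1 (mul_eq_right.1 e)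
  by_contra hcon
  push Not at hcon
  obtain ⟨w1, w2, w3, w4⟩ := hcon
  have hsub : ({1, u, v, u * v, w} : Finset G) ⊆
      ((S : Subgroup G) : Set G).toFinite.toFinset := by
    intro y hy
    simp only [Finset.mem_insert, Finset.mem_singleton] at hy
    rw [Set.Finite.mem_toFinset]
    rcases hy with rfl | rfl | rfl | rfl | rfl
    exacts [one_mem (S : Subgroup G), hu, hv, mul_mem hu hv, hw]
  have h4 := Finset.card_le_card hsub
  rw [← Set.ncard_eq_toFinset_card, ← Nat.card_coe_set_eq] at h4
  have h5 : ({1, u, v, u * v, w} : Finset G).card = 5 := by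
    rw [Finset.card_insert_of_notMem, Finset.card_insert_of_notMem, Finset.card_insert_of_notMem,
      Finset.card_pair (Ne.symm w4)]
    · simp [hne2.symm, Ne.symm w3]
    · simp [huv, hne1.symm, Ne.symm w2]
    · simp [hu1.symm, hv1.symm, hne.symm, Ne.symm w1]
  rw [h5] at h4
  have : Nat.card (S : Subgroup G) = 4 := hS.card_four
  change 5 ≤ Nat.card (S : Subgroup G) at h4
  omega

theorem isElementaryAbelian : Cfsg.IsElementaryAbelian 2 (S : Subgroup G) :=
  ⟨Invol.klein_comm S hS, fun a ha => by rw [pow_two]; exact mul_self_eq hS ha⟩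

/-- An invariant subgroup of odd order is generated by the centralisers of the involutions. -/
theorem le_of_centralizers {X H : Subgroup G} (hX : Odd (Nat.card X))
    (hn : (S : Subgroup G) ≤ normalizer (X : Set G))
    (hc : ∀ a ∈ (S : Subgroup G), a ≠ 1 → X ⊓ centralizer ({a} : Set G) ≤ H) : X ≤ H := by
  haveI : Fact (Nat.Prime 2) := ⟨Nat.prime_two⟩
  refine Signalizer.le_of_forall_centralizer (isElementaryAbelian hS) ?_ hn ?_ hc
  · rw [show Nat.card (S : Subgroup G) = 4 from hS.card_four]; norm_num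
  · exact fun hd => Nat.not_even_iff_odd.2 hX (even_iff_two_dvd.2 hd)

/-- A `p`-subgroup normalised by `S` and by an element cycling `S` is centralised by `S`. -/
theorem le_centralizer_of_invariant (h : Hyp G p) {x : G} (hx : Cyc (S : Subgroup G) x)
    {X : Subgroup G} (hX : IsPGroup p X) (hn : (S : Subgroup G) ≤ normalizer (X : Set G))
    (hxn : x ∈ normalizer (X : Set G)) : X ≤ centralizer ((S : Subgroup G) : Set G) := by
  haveI := Fact.mk h.hp
  induction hk : Nat.card X using Nat.strong_induction_on generalizing X with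
  | _ n ih =>
    subst hk
    rcases eq_or_ne X ⊥ with rfl | hne
    · exact bot_le
    have hodd := h.odd_card_of_pGroup hX
    have hconjX : ∀ {g : G}, g ∈ normalizer (X : Set G) → ∀ v ∈ X, g * v * g⁻¹ ∈ X :=
      fun hg v hv => (mem_normalizer_iff.1 hg v).1 hv
    set D : Subgroup G := (commutator X).map X.subtype with hD
    have hDle : D ≤ X := map_subtype_le _
    have hDlt : Nat.card D < Nat.card X := by
      rw [hD, card_map_of_injective X.subtype_injective]
      refine lt_of_le_of_ne (Subgroup.card_le_card_group _) fun e => ?_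
      have htop : commutator X = ⊤ := eq_top_of_card_eq _ e
      haveI : Group.IsNilpotent X := hX.isNilpotent
      haveI : Nontrivial X := (nontrivial_iff_ne_bot X).2 hne
      exact (Group.IsSolvable.commutator_lt_top_of_nontrivial X).ne htop
    have hnormD : normalizer (X : Set G) ≤ normalizer (D : Set G) := by
      have e : D = ⁅X, X⁆ := by rw [hD, map_subtype_commutator]
      rw [e]
      exact Signalizer.le_normalizer_commutator le_rfl le_rfl
    have hDcent : D ≤ centralizer ((S : Subgroup G) : Set G) :=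
      ih _ hDlt (hX.to_le hDle) (hn.trans hnormD) (hnormD hxn) rfl
    refine le_of_centralizers hS hodd hn fun u hu hu1 => ?_
    intro v hv'
    obtain ⟨hv, hvu⟩ := Subgroup.mem_inf.1 hv'
    rw [mem_centralizer_singleton_iff] at hvu
    -- the three components
    set u₁ := x * u * x⁻¹ with hu₁
    set u₂ := x * u₁ * x⁻¹ with hu₂
    have hu₁S : u₁ ∈ (S : Subgroup G) := (mem_normalizer_iff.1 hx.mem u).1 hu
    have hu₂S : u₂ ∈ (S : Subgroup G) := (mem_normalizer_iff.1 hx.mem u₁).1 hu₁S
    have hu₁1 : u₁ ≠ 1 := fun e => hu1 (conj_eq_one_iff.1 e)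
    have hu₂1 : u₂ ≠ 1 := fun e => hu₁1 (conj_eq_one_iff.1 e)
    have h10 : u₁ ≠ u := hx.move u hu hu1
    have h21 : u₂ ≠ u₁ := hx.move u₁ hu₁S hu₁1
    have hx3 : x * (x * (x * 1)) = 1 := by
      have := pow_orderOf_eq_one x
      rw [hx.ord] at this
      simpa [pow_succ, mul_assoc] using this
    have h20 : u₂ ≠ u := by
      intro e
      refine h10 ?_
      have h3 : x * u₂ * x⁻¹ = u := by
        rw [hu₂, hu₁]
        calc x * (x * (x * u * x⁻¹) * x⁻¹) * x⁻¹
            = (x * (x * (x * 1))) * u * (x * (x * (x * 1)))⁻¹ := by group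
          _ = u := by rw [hx3]; group
      rwa [e] at h3
    have hu12 : u₂ = u * u₁ := by
      rcases four_cases hS hu hu₁S hu1 hu₁1 h10.symm hu₂S with e | e | e | e
      · exact absurd e hu₂1
      · exact absurd e h20
      · exact absurd e h21
      · exact e
    set v₁ := x * v * x⁻¹ with hv₁
    set v₂ := x * v₁ * x⁻¹ with hv₂
    have hv₁X : v₁ ∈ X := hconjX hxn v hv
    have hv₂X : v₂ ∈ X := hconjX hxn v₁ hv₁X
    have c1 : v₁ * u₁ = u₁ * v₁ := by
      rw [hv₁, hu₁]
      calc x * v * x⁻¹ * (x * u * x⁻¹) = x * (v * u) * x⁻¹ := by group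
        _ = x * (u * v) * x⁻¹ := by rw [hvu]
        _ = _ := by group
    have c2 : v₂ * u₂ = u₂ * v₂ := by
      rw [hv₂, hu₂]
      calc x * v₁ * x⁻¹ * (x * u₁ * x⁻¹) = x * (v₁ * u₁) * x⁻¹ := by group
        _ = x * (u₁ * v₁) * x⁻¹ := by rw [c1]
        _ = _ := by group
    -- the norm of `v` is trivial
    have hnorm : v * v₁ * v₂ = 1 := by
      set w := v * v₁ * v₂ with hw
      have hwX : w ∈ X := mul_mem (mul_mem hv hv₁X) hv₂X
      have hcube : (v * x) ^ 3 = w := by
        rw [hw, hv₂, hv₁]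
        calc (v * x) ^ 3 = v * (x * v * x⁻¹) * (x * (x * v * x⁻¹) * x⁻¹) * (x * (x * (x * 1))) := by
              simp [pow_succ]; group
          _ = _ := by rw [hx3, mul_one]
      by_contra hw1
      have hwp := h.pow_p_of_mem_pGroup hX hwX
      have hwo := h.orderOf_eq hwp hw1
      have hpd : p ∣ orderOf (v * x) := by
        rw [← hwo, ← hcube]
        exact orderOf_pow_dvd 3
      have hdiv : orderOf (v * x) ∣ 3 * p := orderOf_dvd_of_pow_eq_one (by rw [pow_mul, hcube, hwp])
      have hvxp : orderOf (v * x) = p := by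
        rcases h.pel _ hpd with e | e
        · exact e
        · exfalso
          rw [e] at hdiv
          have h2 : 2 ∣ 3 * p := dvd_trans (dvd_mul_right 2 p) hdiv
          rcases Nat.prime_two.dvd_mul.1 h2 with h2 | h2
          · norm_num at h2
          · exact Nat.not_even_iff_odd.2 h.hodd (even_iff_two_dvd.2 h2)
      by_cases hp3 : p = 3
      · refine hw1 ?_
        rw [← hcube, ← hp3, ← hvxp, pow_orderOf_eq_one]
      · have hcop : Nat.Coprime 3 (orderOf (v * x)) := by
          rw [hvxp]
          exact (Nat.coprime_primes Nat.prime_three h.hp).2 (Ne.symm hp3)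
        obtain ⟨m, hm⟩ := exists_pow_eq_self_of_coprime (x := v * x) hcop
        have hvx : v * x ∈ X := by
          rw [← hm, ← pow_mul, pow_mul, hcube]
          exact pow_mem hwX m
        have hxX : x ∈ X := by simpa using mul_mem (inv_mem hv) hvx
        have := h.pow_p_of_mem_pGroup hX hxX
        have hd := orderOf_dvd_of_pow_eq_one this
        rw [hx.ord] at hd
        exact hp3 ((Nat.prime_dvd_prime_iff_eq Nat.prime_three h.hp).1 hd).symm
    -- the abelianised computation
    let φ : X →* Abelianization X := Abelianization.of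
    let cH : normalizer (X : Set G) → (X →* X) := fun g =>
      { toFun := fun y => ⟨(g : G) * y * (g : G)⁻¹, hconjX g.2 y y.2⟩
        map_one' := Subtype.ext (by simp)
        map_mul' := fun y z => Subtype.ext (by simp [mul_assoc]) }
    let Φ : normalizer (X : Set G) → (Abelianization X →* Abelianization X) :=
      fun g => Abelianization.map (cH g)
    have hΦ : ∀ g (y : X), Φ g (φ y) = φ (cH g y) := fun g y => Abelianization.map_of _ y
    set a := φ ⟨v, hv⟩ with ha
    set b := φ ⟨v₁, hv₁X⟩ with hb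
    set c := φ ⟨v₂, hv₂X⟩ with hc
    have habc : a * b * c = 1 := by
      rw [ha, hb, hc, ← map_mul, ← map_mul]
      convert map_one φ using 2
      exact Subtype.ext hnorm
    have hfix : ∀ (g : normalizer (X : Set G)) (y : G) (hy : y ∈ X), y * g = g * y →
        Φ g (φ ⟨y, hy⟩) = φ ⟨y, hy⟩ := by
      intro g y hy e
      rw [hΦ]
      congr 1
      exact Subtype.ext (by
        show (g : G) * y * (g : G)⁻¹ = y
        rw [← e]; group)
    have hcompose : ∀ g k (y : Abelianization X), Φ g (Φ k y) = Φ (g * k) y := by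
      intro g k y
      obtain ⟨z, rfl⟩ := QuotientGroup.mk_surjective y
      show Φ g (Φ k (φ z)) = Φ (g * k) (φ z)
      rw [hΦ, hΦ, hΦ]
      congr 1
      refine Subtype.ext ?_
      show (g : G) * ((k : G) * z * (k : G)⁻¹) * (g : G)⁻¹
        = ((g * k : normalizer (X : Set G)) : G) * z * ((g * k : normalizer (X : Set G)) : G)⁻¹
      rw [Subgroup.coe_mul]; group
    let U : normalizer (X : Set G) := ⟨u, hn hu⟩
    let U₁ : normalizer (X : Set G) := ⟨u₁, hn hu₁S⟩
    let U₂ : normalizer (X : Set G) := ⟨u₂, hn hu₂S⟩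
    have hUc : U * U₁ = U₁ * U := Subtype.ext (comm hS hu hu₁S)
    have hU2 : U * U₁ = U₂ := Subtype.ext hu12.symm
    have hU2' : U * U₂ = U₁ := by
      refine Subtype.ext ?_
      show u * u₂ = u₁
      rw [hu12, ← mul_assoc, mul_self_eq hS hu, one_mul]
    have fa : Φ U a = a := hfix U v hv hvu
    have fb : Φ U₁ b = b := hfix U₁ v₁ hv₁X c1
    have fc : Φ U₂ c = c := hfix U₂ v₂ hv₂X c2
    have h1 : Φ U₁ a * b * Φ U₁ c = 1 := by
      rw [← fb, ← map_mul, ← map_mul, habc, map_one]
    set e := a⁻¹ * Φ U₁ a with he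
    have he' : e = c * (Φ U₁ c)⁻¹ := by
      have h2 : Φ U₁ a = (b * Φ U₁ c)⁻¹ :=
        eq_inv_of_mul_eq_one_left (by rw [← mul_assoc]; exact h1)
      have h3 : a⁻¹ = b * c := inv_eq_of_mul_eq_one_right (by rw [← mul_assoc]; exact habc)
      rw [he, h2, h3, mul_inv]
      calc b * c * (b⁻¹ * (Φ U₁ c)⁻¹)
          = b * b⁻¹ * (c * (Φ U₁ c)⁻¹) := mul_mul_mul_comm _ _ _ _
        _ = _ := by rw [mul_inv_cancel, one_mul]
    have g1 : Φ U e = e := by
      rw [he, map_mul, map_inv, fa, hcompose, hUc, ← hcompose, fa]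
    have g2 : Φ U e = e⁻¹ := by
      have k1 : Φ U c = Φ U₁ c := by
        conv_lhs => rw [← fc]
        rw [hcompose, hU2']
      have k2 : Φ U (Φ U₁ c) = c := by rw [hcompose, hU2, fc]
      rw [he', map_mul, map_inv, k1, k2, mul_inv, inv_inv, mul_comm]
    have hee : e = 1 := by
      obtain ⟨z, hz⟩ := QuotientGroup.mk_surjective e
      have ho : Odd (orderOf e) := by
        refine (h.odd_card_of_pGroup hX).of_dvd_nat ?_
        rw [← hz]
        exact (orderOf_map_dvd (QuotientGroup.mk' _) z).trans (orderOf_dvd_natCard z)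
      have h2 : orderOf e ∣ 2 := by
        refine orderOf_dvd_of_pow_eq_one ?_
        rw [pow_two]
        nth_rewrite 1 [show e = e⁻¹ from g1.symm.trans g2]
        exact inv_mul_cancel e
      rcases (Nat.dvd_prime Nat.prime_two).1 h2 with h2 | h2
      · exact orderOf_eq_one_iff.1 h2
      · rw [h2] at ho
        exact absurd ho (by decide)
    -- `v` commutes with `u₁`
    set d := v⁻¹ * (u₁ * v * u₁) with hd
    have hu1X : u₁ * v * u₁ ∈ X := by
      have := hconjX (hn hu₁S) v hv
      rwa [inv_eq hS hu₁S] at this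
    have hdD : d ∈ D := by
      refine ⟨(⟨v, hv⟩ : X)⁻¹ * ⟨u₁ * v * u₁, hu1X⟩, ?_, rfl⟩
      rw [← Abelianization.ker_of, SetLike.mem_coe, MonoidHom.mem_ker, map_mul, map_inv]
      have hcv : cH U₁ ⟨v, hv⟩ = ⟨u₁ * v * u₁, hu1X⟩ :=
        Subtype.ext (by show u₁ * v * u₁⁻¹ = _; rw [inv_eq hS hu₁S])
      rw [← hcv, ← hΦ]
      exact hee
    have hd1 : d = 1 := by
      have hcd : u₁ * d = d * u₁ := mem_centralizer_iff.1 (hDcent hdD) u₁ hu₁S
      refine eq_one_of_sq hodd (hDle hdD) ?_
      have h2 : u₁ * d * u₁ = d := by rw [hcd, mul_assoc, mul_self_eq hS hu₁S, mul_one]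
      have h3 : u₁ * d * u₁ = d⁻¹ := by
        rw [hd]
        calc u₁ * (v⁻¹ * (u₁ * v * u₁)) * u₁ = u₁ * v⁻¹ * u₁ * v * (u₁ * u₁) := by group
          _ = u₁⁻¹ * v⁻¹ * u₁⁻¹ * v := by rw [mul_self_eq hS hu₁S, inv_eq hS hu₁S, mul_one]
          _ = _ := by group
      nth_rewrite 1 [h2.symm.trans h3]
      exact inv_mul_cancel d
    have hcomm1 : Commute v u₁ := by
      have : v = u₁ * v * u₁ := inv_mul_eq_one.1 hd1
      show v * u₁ = u₁ * v
      nth_rewrite 1 [this]
      rw [mul_assoc, mul_self_eq hS hu₁S, mul_one]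
    rw [mem_centralizer_iff]
    intro s hs
    rcases four_cases hS hu hu₁S hu1 hu₁1 h10.symm hs with rfl | rfl | rfl | rfl
    · simp
    · exact hvu.symm
    · exact hcomm1.eq.symm
    · exact ((show Commute v u from hvu).mul_right hcomm1).eq.symm

end Four

end Cfsg.Agent.Spec2P
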