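import Cfsg.Agent.Spec2P.OddPart
import Cfsg.Agent.Cores.Fitting
import Cfsg.Agent.Char.Burnside
import Cfsg.Agent.BlkChar.PModular
import Cfsg.Agent.S4479
import Cfsg.Agent.S0948

/-!
# The four group is self-centralising
-/

set_option autoImplicit false

namespace Cfsg.Agent.Spec2P

open Subgroup

variable {G : Type*} [Group G] [Finite G] {p : ℕ}
variable {S : Sylow 2 G} (hS : IsKleinFour (S : Subgroup G))
include hS

theorem commute_of_normalized {Y : Subgroup G} (hY : Odd (Nat.card Y))
    (hn : (S : Subgroup G) ≤ normalizer (Y : Set G))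
    (hYS : Y ≤ normalizer ((S : Subgroup G) : Set G)) :
    Y ≤ centralizer ((S : Subgroup G) : Set G) := by
  intro y hy
  rw [mem_centralizer_iff]
  intro s hs
  have h1 : y * s * y⁻¹ * s⁻¹ ∈ (S : Subgroup G) :=
    mul_mem ((mem_normalizer_iff.1 (hYS hy) s).1 hs) (inv_mem hs)
  have h2 : y * s * y⁻¹ * s⁻¹ ∈ Y := by
    rw [show y * s * y⁻¹ * s⁻¹ = y * (s * y⁻¹ * s⁻¹) by group]
    exact mul_mem hy ((mem_normalizer_iff.1 (hn hs) _).1 (inv_mem hy))
  have h3 := eq_one_of_sq hY h2 (mul_self_eq hS h1)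
  exact (mul_inv_eq_iff_eq_mul.1 (mul_inv_eq_one.1 h3)).symm

/-- The centraliser of the odd part `D` of `C(S)` meets an `S`-invariant `p`-subgroup only in
`C(S)`. -/
theorem le_centralizer_of_le_centralizer (h : Hyp G p) {x : G} (hx : Cyc (S : Subgroup G) x)
    {D Y : Subgroup G} (hSD : (S : Subgroup G) ≤ centralizer (D : Set G))
    (hxD : x ∈ normalizer (D : Set G)) (hD : ∃ f ∈ D, orderOf f = p) (hY : IsPGroup p Y)
    (hn : (S : Subgroup G) ≤ normalizer (Y : Set G)) (hYD : Y ≤ centralizer (D : Set G)) :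
    Y ≤ centralizer ((S : Subgroup G) : Set G) := by
  haveI := Fact.mk h.hp
  haveI : Fact (Nat.Prime 2) := ⟨Nat.prime_two⟩
  obtain ⟨f, hf, hfo⟩ := hD
  set H := centralizer (D : Set G) with hH
  have hodd : ∀ g ∈ H, Odd (orderOf g) → g ^ p = 1 := fun g hg ho =>
    h.pow_p_of_pel hfo (show Commute f g from mem_centralizer_iff.1 hg f hf) ho
  have hYo := h.odd_card_of_pGroup hY
  rcases cyc_or_oddPart hS h hSD with ⟨x', hx'H, hcx⟩ | ⟨R, hR, -⟩
  swap
  · have hRp : IsPGroup p R := h.isPGroup_of_pow fun g hg =>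
      hodd g (hR.le hg) ((hR.iff g (hR.le hg)).1 hg)
    have hxH : x ∈ normalizer (H : Set G) :=
      Signalizer.le_normalizer_centralizer (A := normalizer (D : Set G)) (S := (D : Set G))
        (fun a ha y hy => (mem_normalizer_iff.1 ha y).1 hy) hxD
    exact (hR.le_of_odd hYD hYo).trans (le_centralizer_of_invariant hS h hx hRp
      (hSD.trans hR.self_le_normalizer) (hR.normalizer_le hxH))
  -- now `p = 3` and `H` is a `{2, 3}`-group
  have hp3 : p = 3 := by
    have := hodd x' hx'H (by rw [hcx.ord]; decide)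
    have hd := orderOf_dvd_of_pow_eq_one this
    rw [hcx.ord] at hd
    exact ((Nat.prime_dvd_prime_iff_eq Nat.prime_three h.hp).1 hd).symm
  have hprimes : ∀ r : ℕ, r.Prime → r ∣ Nat.card H → r = 2 ∨ r = p := by
    intro r hr hd
    haveI := Fact.mk hr
    obtain ⟨g, hg⟩ := exists_prime_orderOf_dvd_card' (G := H) r hd
    rw [← Subgroup.orderOf_coe] at hg
    by_cases hr2 : r = 2
    · exact Or.inl hr2
    · right
      have := hodd g g.2 (by rw [hg]; exact hr.odd_of_ne_two hr2)
      have hd' := orderOf_dvd_of_pow_eq_one this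
      rw [hg] at hd'
      exact (Nat.prime_dvd_prime_iff_eq hr h.hp).1 hd'
  haveI : Group.IsSolvable H :=
    Char.solvable_of_card_eq_pow_mul_pow 2 p Nat.prime_two h.hp _ rfl hprimes
  set K := (Cfsg.pCore 2 H).map H.subtype with hK
  have hKp : IsPGroup 2 K := Cores.pCore_isPGroup.map _
  have hnK : ∀ q : ℕ, H ≤ normalizer (((Cfsg.pCore q H).map H.subtype : Subgroup G) : Set G) := by
    intro q g hg
    have aux : ∀ k : H, ∀ y ∈ (Cfsg.pCore q H).map H.subtype,
        (k : G) * y * (k : G)⁻¹ ∈ (Cfsg.pCore q H).map H.subtype := by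
      rintro k _ ⟨z, hz, rfl⟩
      exact ⟨k * z * k⁻¹, Subgroup.Normal.conj_mem inferInstance z hz k, rfl⟩
    rw [mem_normalizer_iff]
    intro y
    refine ⟨aux ⟨g, hg⟩ y, fun hy => ?_⟩
    have := aux (⟨g, hg⟩ : H)⁻¹ _ hy
    simpa [mul_assoc] using this
  have hKS : K ≤ (S : Subgroup G) := by
    have h1 := S.is_maximal' (S.2.to_sup_of_normal_right' hKp (hSD.trans (hnK 2))) le_sup_left
    exact le_sup_right.trans h1.le
  by_cases hKb : K = ⊥
  · -- `S` would centralise the Fitting subgroup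
    exfalso
    have hF : ∀ q : Nat.Primes, Cfsg.pCore (q : ℕ) H ≤
        (centralizer ((S : Subgroup G) : Set G)).subgroupOf H := by
      intro q
      haveI := Fact.mk q.2
      by_cases hq2 : (q : ℕ) = 2
      · rw [hq2, (map_eq_bot_iff_of_injective _ H.subtype_injective).1 hKb]
        exact bot_le
      · set Q := (Cfsg.pCore (q : ℕ) H).map H.subtype with hQ
        have hQq : IsPGroup (q : ℕ) Q := Cores.pCore_isPGroup.map _
        have hQo : Odd (Nat.card Q) := by
          obtain ⟨j, hj⟩ := hQq.exists_card_eq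
          rw [hj]
          exact (q.2.odd_of_ne_two hq2).pow
        have hQp : IsPGroup p Q := h.isPGroup_of_pow fun g hg =>
          hodd g (map_subtype_le _ hg) (odd_orderOf_of_mem hQo hg)
        have h1 := le_centralizer_of_invariant hS h hcx hQp (hSD.trans (hnK _)) (hnK _ hx'H)
        intro z hz
        exact mem_subgroupOf.2 (h1 (mem_map_of_mem _ hz))
    obtain ⟨u, hu, hu1⟩ : ∃ u ∈ (S : Subgroup G), u ≠ 1 := by
      refine (S : Subgroup G).ne_bot_iff_exists_ne_one.1 ?_ |>.elim
        fun u hu => ⟨u.1, u.2, fun e => hu (Subtype.ext e)⟩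
      intro e
      have : Nat.card (S : Subgroup G) = 4 := hS.card_four
      rw [e, card_bot] at this
      omega
    have huF : (⟨u, hSD hu⟩ : H) ∈ centralizer (Cfsg.fittingSubgroup H : Set H) := by
      rw [mem_centralizer_iff]
      intro z hz
      rw [SetLike.mem_coe, Cores.fittingSubgroup_eq_iSup_pCore] at hz
      exact Subtype.ext (mem_centralizer_iff.1 (mem_subgroupOf.1 ((iSup_le hF) hz)) u hu).symm
    have hu' := Cores.centralizer_fittingSubgroup_le huF
    -- the Fitting subgroup has odd order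
    have hu2 : orderOf (⟨u, hSD hu⟩ : H) = 2 := by
      rw [← Subgroup.orderOf_coe]; exact Invol.klein_ne_one S hu hS hu1
    have h2 : IsPGroup 2 (zpowers (⟨u, hSD hu⟩ : H)) :=
      IsPGroup.of_card (n := 1) (by rw [Nat.card_zpowers, hu2, pow_one])
    haveI hnil := Cores.fittingSubgroup_isNilpotent (G := H)
    obtain ⟨T, hT⟩ := (h2.comap_of_injective (Cfsg.fittingSubgroup H).subtype
      Subtype.val_injective).exists_le_sylow
    haveI hTn : ((T : Subgroup (Cfsg.fittingSubgroup H))).Normal := inferInstance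
    haveI hTc : (T : Subgroup (Cfsg.fittingSubgroup H)).Characteristic :=
      Sylow.characteristic_of_normal T hTn
    have hle : (T : Subgroup (Cfsg.fittingSubgroup H)).map (Cfsg.fittingSubgroup H).subtype ≤
        Cfsg.pCore 2 H := le_sSup ⟨inferInstance, T.2.map _⟩
    have hu3 : (⟨u, hSD hu⟩ : H) ∈ Cfsg.pCore 2 H :=
      hle ⟨⟨_, hu'⟩, hT (mem_zpowers _), rfl⟩
    have hu4 : u ∈ K := ⟨_, hu3, rfl⟩
    rw [hKb, mem_bot] at hu4
    exact hu1 hu4
  · obtain ⟨⟨u, hu⟩, hu1⟩ := K.ne_bot_iff_exists_ne_one.1 hKb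
    have hu1' : u ≠ 1 := fun e => hu1 (Subtype.ext e)
    have hu' : x' * u * x'⁻¹ ∈ K := (mem_normalizer_iff.1 (hnK 2 hx'H) u).1 hu
    have hKeq : K = (S : Subgroup G) := by
      refine le_antisymm hKS fun w hw => ?_
      rcases four_cases hS (hKS hu) (hKS hu') hu1' (fun e => hu1' (conj_eq_one_iff.1 e))
        (hcx.move u (hKS hu) hu1').symm hw with rfl | rfl | rfl | rfl
      · exact one_mem _
      · exact hu
      · exact hu'
      · exact mul_mem hu hu'
    exact commute_of_normalized hS hYo hn (hYD.trans (hKeq ▸ hnK 2))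

/-- Only the trivial element of odd order centralises `S`. -/
theorem odd_centralizer_trivial [IsSimpleGroup G] (h : Hyp G p) {x : G}
    (hx : Cyc (S : Subgroup G) x) {d : G} (hd : d ∈ centralizer ((S : Subgroup G) : Set G))
    (hdo : Odd (orderOf d)) : d = 1 := by
  haveI := Fact.mk h.hp
  haveI : Fact (Nat.Prime 2) := ⟨Nat.prime_two⟩
  by_contra hd1
  obtain ⟨t, ht, ht1⟩ : ∃ t ∈ (S : Subgroup G), t ≠ 1 := by
    refine (S : Subgroup G).ne_bot_iff_exists_ne_one.1 ?_ |>.elim
      fun u hu => ⟨u.1, u.2, fun e => hu (Subtype.ext e)⟩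
    intro e
    have : Nat.card (S : Subgroup G) = 4 := hS.card_four
    rw [e, card_bot] at this
    omega
  have hScom : (S : Subgroup G) ≤ centralizer ((S : Subgroup G) : Set G) :=
    fun a ha => mem_centralizer_iff.2 fun b hb => comm hS hb ha
  obtain ⟨D, hD⟩ : ∃ D, IsOddPart (centralizer ((S : Subgroup G) : Set G)) D := by
    rcases cyc_or_oddPart hS h hScom with ⟨y, hy, hcy⟩ | ⟨R, hR, -⟩
    · exact absurd (mul_inv_eq_iff_eq_mul.2 (mem_centralizer_iff.1 hy t ht).symm)
        (hcy.move t ht ht1)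
    · exact ⟨R, hR⟩
  have hto : orderOf t = 2 := Invol.klein_ne_one S ht hS ht1
  have hDp : IsPGroup p D := h.isPGroup_of_pow fun g hg =>
    h.pow_p_of_invol hto (show Commute t g from mem_centralizer_iff.1 (hD.le hg) t ht)
      ((hD.iff g (hD.le hg)).1 hg)
  have hdD : d ∈ D := (hD.iff d hd).2 hdo
  have hdp : orderOf d = p := h.orderOf_eq (h.pow_p_of_mem_pGroup hDp hdD) hd1
  have hSD : (S : Subgroup G) ≤ centralizer (D : Set G) := fun a ha =>
    mem_centralizer_iff.2 fun y hy => (mem_centralizer_iff.1 (hD.le hy) a ha).symm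
  have hxD : x ∈ normalizer (D : Set G) := hD.normalizer_le
    (Signalizer.le_normalizer_centralizer (A := normalizer ((S : Subgroup G) : Set G))
      (S := ((S : Subgroup G) : Set G)) (fun a ha y hy => (mem_normalizer_iff.1 ha y).1 hy) hx.mem)
  -- every centraliser of an involution of `S` is `C(S)`
  have hcentr : centralizer ({t} : Set G) = centralizer ((S : Subgroup G) : Set G) := by
    obtain ⟨R, hR, hRp, hle⟩ := exists_centralizer_oddPart hS h ht ht1
    have hSt : (S : Subgroup G) ≤ centralizer ({t} : Set G) :=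
      fun a ha => mem_centralizer_singleton_iff.2 (comm hS ha ht)
    have hDR : D ≤ R := hR.le_of_odd (fun y hy => mem_centralizer_singleton_iff.2
      (mem_centralizer_iff.1 (hD.le hy) t ht).symm) hD.odd_card
    have hRD : R = D := by
      refine Signalizer.eq_of_normalizer_inf_le_self hRp hDR ?_
      rintro g hg'
      obtain ⟨hgN, hgR⟩ := Subgroup.mem_inf.1 hg'
      -- the commutator of `g` with an involution centralises `D`
      by_contra hgD
      obtain ⟨s, hs, hs1⟩ : ∃ s ∈ (S : Subgroup G), ¬ Commute g s := by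
        by_contra hall
        push Not at hall
        exact hgD ((hD.iff g (mem_centralizer_iff.2 fun a ha => (hall a ha).eq.symm)).2
          ((hR.iff g (hR.le hgR)).1 hgR))
      have hss := mul_self_eq hS hs
      have hsR : ∀ y ∈ R, s * y * s ∈ R := fun y hy => by
        have := (mem_normalizer_iff.1 (hR.self_le_normalizer (hSt hs)) y).1 hy
        rwa [inv_eq hS hs] at this
      set w := g⁻¹ * (s * g * s) with hw
      have hwR : w ∈ R := mul_mem (inv_mem hgR) (hsR g hgR)
      have hsD : ∀ f ∈ D, s * f * s = f := fun f hf => by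
        rw [mem_centralizer_iff.1 (hD.le hf) s hs, mul_assoc, hss, mul_one]
      let Y : Subgroup G := R ⊓ centralizer (D : Set G)
      have hwY : w ∈ Y := by
        refine Subgroup.mem_inf.2 ⟨hwR, mem_centralizer_iff.2 fun f hf => ?_⟩
        have hf' : g * f * g⁻¹ ∈ D := (mem_normalizer_iff.1 hgN f).1 hf
        have e1 := hsD _ hf'
        have e2 : s * g * s * f * (s * g * s)⁻¹ = g * f * g⁻¹ := by
          calc s * g * s * f * (s * g * s)⁻¹ = s * (g * (s * f * s⁻¹) * g⁻¹) * s⁻¹ := by group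
            _ = g * f * g⁻¹ := by rw [inv_eq hS hs, hsD f hf, e1]
        have e3 : w * f * w⁻¹ = f := by
          rw [hw]
          calc g⁻¹ * (s * g * s) * f * (g⁻¹ * (s * g * s))⁻¹
              = g⁻¹ * (s * g * s * f * (s * g * s)⁻¹) * g := by group
            _ = f := by rw [e2]; group
        exact (mul_inv_eq_iff_eq_mul.1 e3).symm
      have hY : Y ≤ centralizer ((S : Subgroup G) : Set G) := by
        refine le_centralizer_of_le_centralizer hS h hx hSD hxD ⟨d, hdD, hdp⟩
          (hRp.to_le inf_le_left) ?_ inf_le_right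
        exact Signalizer.le_normalizer_inf (hSt.trans hR.self_le_normalizer)
          (hSD.trans Subgroup.le_normalizer)
      have hsw : s * w = w * s := mem_centralizer_iff.1 (hY hwY) s hs
      have hw1 : w = 1 := by
        refine eq_one_of_sq hR.odd_card hwR ?_
        have h1 : s * w * s = w := by rw [hsw, mul_assoc, hss, mul_one]
        have h2 : s * w * s = w⁻¹ := by
          rw [hw]
          calc s * (g⁻¹ * (s * g * s)) * s = s * g⁻¹ * s * g * (s * s) := by group
            _ = s⁻¹ * g⁻¹ * s⁻¹ * g := by rw [hss, inv_eq hS hs, mul_one]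
            _ = _ := by group
        nth_rewrite 1 [h1.symm.trans h2]
        exact inv_mul_cancel w
      refine hs1 ?_
      have h3 : g = s * g * s := inv_mul_eq_one.1 hw1
      show g * s = s * g
      nth_rewrite 1 [h3]
      rw [mul_assoc, hss, mul_one]
    refine le_antisymm (hle.trans (sup_le (hRD ▸ hD.le) hScom)) fun g hg => ?_
    exact mem_centralizer_singleton_iff.2 (mem_centralizer_iff.1 hg t ht).symm
  -- the order formula bounds the number of Sylow 2-subgroups
  have hone : ∀ a b : G, orderOf a = 2 → orderOf b = 2 → IsConj a b := by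
    rcases Invol.klein_dichotomy S hS with hall | ⟨hN, -⟩
    · exact hall
    · exfalso
      exact hx.move t ht ht1 (mul_inv_eq_iff_eq_mul.2 (mem_centralizer_iff.1 (hN hx.mem) t ht).symm)
  obtain ⟨M, hM⟩ := BlkChar.exists_isPModular 2 Nat.prime_two
  obtain ⟨ζ₂, ζ₃, ζ₄, ε, hε, hn2, hn3, h23, h24, h34, hB, hval, -, hm3, hm4, -⟩ :=
    Cfsg.Agent.S0948.result M hM S hS hone
  have hS4 : Nat.card (S : Subgroup G) = 4 := hS.card_four
  set g₀ := (S : Subgroup G).index with hg₀
  have hGc : Nat.card G = 4 * g₀ := by rw [← hS4, hg₀, card_mul_index]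
  have hg₀odd : Odd g₀ := by
    rw [← Nat.not_even_iff_odd]
    exact fun he => S.not_dvd_index he.two_dvd
  have hnc : ¬ ∃ N : Subgroup G, N.Normal ∧ Nat.card N = g₀ := by
    rintro ⟨N, hN, hNc⟩
    rcases IsSimpleGroup.eq_bot_or_eq_top_of_normal N hN with rfl | rfl
    · rw [card_bot] at hNc
      have hStop : (S : Subgroup G) = ⊤ := index_eq_one.1 (by rw [← hg₀, ← hNc])
      have hxS : x ∈ (S : Subgroup G) := hStop ▸ mem_top x
      exact hx.move t ht ht1 (mul_inv_eq_iff_eq_mul.2 (comm hS hxS ht))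
    · rw [card_top, hGc] at hNc
      have : 0 < g₀ := hg₀odd.pos
      omega
  have hz := hval t hto
  have hn4 : (ζ₄ : G → ℂ) ≠ (fun _ => 1) := by
    intro e
    have := hz.2.2
    rw [e] at this
    norm_num at this
  have hformula := Cfsg.Agent.S4479.result M hM g₀ hg₀odd hGc hnc S t ht hto ζ₂ ζ₃ ζ₄ 1 ε (-1)
    hB ⟨hn2, hn3, hn4, h23, h24, h34⟩ ⟨Or.inl rfl, hε, Or.inr rfl⟩
    ⟨by rw [hz.1]; norm_num, hz.2.1, by rw [hz.2.2]; norm_num⟩
  set x₁ := Cfsg.charDegree (ζ₂ : G → ℂ)
  set x₂ := Cfsg.charDegree (ζ₃ : G → ℂ)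
  set x₃ := Cfsg.charDegree (ζ₄ : G → ℂ)
  set c := Nat.card (centralizer ((S : Subgroup G) : Set G)) with hc
  rw [hcentr, ← hc] at hformula
  have hx1 : (1 : ℚ) ≤ x₁ := by exact_mod_cast (Char.irr_charDegree_spec ζ₂.2).1
  have hx2 : (1 : ℚ) ≤ x₂ := by exact_mod_cast (Char.irr_charDegree_spec ζ₃.2).1
  have hx3 : (3 : ℚ) ≤ x₃ := by
    have hpos : 0 < x₃ := (Char.irr_charDegree_spec ζ₄.2).1
    have : 3 ≤ x₃ := by omega
    exact_mod_cast this
  have hA : (x₁ : ℚ) / (x₁ + 1) < 1 := by
    rw [div_lt_one (by linarith)]; linarith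
  have hA0 : 0 < (x₁ : ℚ) / (x₁ + 1) := div_pos (by linarith) (by linarith)
  have hB' : 0 < (x₂ : ℚ) / (x₂ + ε) ∧ (x₂ : ℚ) / (x₂ + ε) ≤ 3 / 2 := by
    rcases hε with rfl | rfl
    · refine ⟨div_pos (by linarith) (by push_cast; linarith), ?_⟩
      rw [div_le_iff₀ (by push_cast; linarith)]
      push_cast; linarith
    · have hpos : 0 < x₂ := (Char.irr_charDegree_spec ζ₃.2).1
      have h3 : (3 : ℚ) ≤ x₂ := by
        have : 3 ≤ x₂ := by omega
        exact_mod_cast this
      refine ⟨div_pos (by linarith) (by push_cast; linarith), ?_⟩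
      rw [div_le_iff₀ (by push_cast; linarith)]
      push_cast; linarith
  have hC : (x₃ : ℚ) / (x₃ + (-1)) ≤ 3 / 2 ∧ 0 < (x₃ : ℚ) / (x₃ + (-1)) := by
    refine ⟨?_, div_pos (by linarith) (by linarith)⟩
    rw [div_le_iff₀ (by linarith)]; linarith
  have hcpos : (0 : ℚ) < c := by exact_mod_cast Nat.card_pos
  have hlt : (Nat.card G : ℚ) < 18 * c := by
    rw [hformula]
    have e : 8 * ((x₁ : ℚ) * x₂ * x₃ / ((x₁ + ((1 : ℤ) : ℚ)) * (x₂ + (ε : ℚ)) * (x₃ + ((-1 : ℤ) : ℚ))))
        * (c : ℚ) ^ 3 / (c : ℚ) ^ 2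
        = 8 * ((x₁ : ℚ) / (x₁ + 1) * (x₂ / (x₂ + ε)) * (x₃ / (x₃ + (-1)))) * c := by
      push_cast
      field_simp
    rw [e]
    have h1 : (x₁ : ℚ) / (x₁ + 1) * (x₂ / (x₂ + ε)) * (x₃ / (x₃ + (-1))) < 1 * (3/2) * (3/2) := by
      calc (x₁ : ℚ) / (x₁ + 1) * (x₂ / (x₂ + ε)) * (x₃ / (x₃ + (-1)))
          < 1 * (x₂ / (x₂ + ε)) * (x₃ / (x₃ + (-1))) :=
            mul_lt_mul_of_pos_right (mul_lt_mul_of_pos_right hA hB'.1) hC.2
        _ ≤ 1 * (3/2) * (3/2) := by
            exact mul_le_mul (by linarith [hB'.2]) hC.1 hC.2.le (by norm_num)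
    nlinarith
  have hlt' : Nat.card G < 18 * c := by exact_mod_cast hlt
  set N := normalizer ((S : Subgroup G) : Set G) with hN
  have hCN : centralizer ((S : Subgroup G) : Set G) ≤ N := by
    intro g hg
    rw [hN, mem_normalizer_iff]
    intro y
    constructor
    · intro hy
      rwa [← mem_centralizer_iff.1 hg y hy, mul_inv_cancel_right]
    · intro hy
      have h1 := mem_centralizer_iff.1 (inv_mem hg) _ hy
      have h2 : y = g * y * g⁻¹ := by
        calc y = g⁻¹ * (g * y * g⁻¹) * g := by group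
          _ = g * y * g⁻¹ := by rw [← h1]; group
      rwa [h2]
  have hxC : x ∉ centralizer ((S : Subgroup G) : Set G) := fun hxc =>
    hx.move t ht ht1 (mul_inv_eq_iff_eq_mul.2 (mem_centralizer_iff.1 hxc t ht).symm)
  set C' := (centralizer ((S : Subgroup G) : Set G)).subgroupOf N with hC'
  have hC'c : Nat.card C' = c := Nat.card_congr (subgroupOfEquivOfLe hCN).toEquiv
  have hCidx : 3 ≤ C'.index := by
    haveI hCn : C'.Normal := ⟨fun a ha g => mem_subgroupOf.2 (mem_centralizer_iff.2 fun b hb => by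
      have ha' := mem_centralizer_iff.1 (mem_subgroupOf.1 ha) ((g : G)⁻¹ * b * g)
        (by
          have := (mem_normalizer_iff.1 (inv_mem g.2) b).1 hb
          rw [inv_inv] at this
          exact this)
      rw [Subgroup.coe_mul, Subgroup.coe_mul, InvMemClass.coe_inv]
      calc b * ((g : G) * a * (g : G)⁻¹) = (g : G) * ((g : G)⁻¹ * b * g * a) * (g : G)⁻¹ := by group
        _ = (g : G) * (a * ((g : G)⁻¹ * b * g)) * (g : G)⁻¹ := by rw [ha']
        _ = _ := by group)⟩
    have h1 : orderOf (QuotientGroup.mk' C' ⟨x, hx.mem⟩) ∣ 3 := by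
      refine (orderOf_map_dvd _ _).trans ?_
      rw [← Subgroup.orderOf_coe]
      exact hx.ord.dvd
    have h3 : orderOf (QuotientGroup.mk' C' ⟨x, hx.mem⟩) = 3 := by
      rcases (Nat.dvd_prime Nat.prime_three).1 h1 with e | e
      · exact absurd (mem_subgroupOf.1
          ((QuotientGroup.eq_one_iff _).1 (orderOf_eq_one_iff.1 e))) hxC
      · exact e
    exact Nat.le_of_dvd (Nat.pos_of_ne_zero C'.index_ne_zero_of_finite) (h3 ▸ orderOf_dvd_natCard _)
  have hN3 : 3 * c ≤ Nat.card N := by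
    rw [← C'.card_mul_index, hC'c, mul_comm 3]
    exact Nat.mul_le_mul le_rfl hCidx
  have hidx : N.index < 6 := by
    by_contra hge
    push Not at hge
    have h1 : 6 * (3 * c) ≤ N.index * Nat.card N := Nat.mul_le_mul hge hN3
    rw [index_mul_card] at h1
    omega
  have hc12 : 12 ≤ c := by
    have hp3 : 3 ≤ p := by
      have := h.hp.two_le
      obtain ⟨j, hj⟩ := h.hodd
      omega
    have hDc : p ∣ Nat.card (centralizer ((S : Subgroup G) : Set G)) := by
      rw [← hdp]; exact orderOf_dvd_natCard _ hd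
    have h4c : 4 ∣ c := by rw [← hS4, hc]; exact card_dvd_of_le hScom
    have hcop : Nat.Coprime 4 p :=
      (Nat.coprime_two_left.2 h.hodd).pow_left 2
    have := Nat.le_of_dvd (by rw [hc]; exact Nat.card_pos) (hcop.mul_dvd_of_dvd_of_dvd h4c hDc)
    omega
  have hNodd : Odd N.index := hg₀odd.of_dvd_nat (index_dvd_of_le Subgroup.le_normalizer)
  have hN1 : N.index ≠ 1 := by
    intro e
    have hNtop : N = ⊤ := index_eq_one.1 e
    have hSn : (S : Subgroup G).Normal := Subgroup.normalizer_eq_top_iff.1 hNtop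
    rcases IsSimpleGroup.eq_bot_or_eq_top_of_normal _ hSn with e' | e'
    · rw [e', card_bot] at hS4; omega
    · exact hxC (mem_centralizer_iff.2 fun y hy => comm hS hy (e' ▸ mem_top x))
  have hinj : Function.Injective (MulAction.toPermHom G (G ⧸ N)) := by
    rw [← MonoidHom.ker_eq_bot_iff]
    rcases IsSimpleGroup.eq_bot_or_eq_top_of_normal _
      (MonoidHom.normal_ker (MulAction.toPermHom G (G ⧸ N))) with e | e
    · exact e
    · exfalso
      refine hN1 (index_eq_one.2 ?_)
      have hle := N.normalCore_le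
      rw [normalCore_eq_ker, e, top_le_iff] at hle
      exact hle
  have hdvd : Nat.card G ∣ (N.index).factorial := by
    have h1 := card_dvd_of_injective _ hinj
    rwa [Nat.card_perm, ← index_eq_card] at h1
  have hGN := N.index_mul_card
  obtain ⟨j, hj⟩ := hNodd
  have hcases : N.index = 3 ∨ N.index = 5 := by omega
  rcases hcases with e | e
  · rw [e] at hdvd hGN
    have h1 : Nat.card G ≤ 6 := Nat.le_of_dvd (by norm_num) hdvd
    omega
  · rw [e] at hdvd hGN
    have h1 : Nat.card G ≤ 120 := Nat.le_of_dvd (by norm_num) hdvd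
    omega

end Cfsg.Agent.Spec2P
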