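import Cfsg.Agent.Spec2P.Basic

/-!
# Odd parts of subgroups containing the four group, and elements cycling it
-/

set_option autoImplicit false

namespace Cfsg.Agent.Spec2P

open Subgroup

variable {G : Type*} [Group G] [Finite G] {p : ℕ}

/-- `R` is the set of elements of odd order of `H`. -/
structure IsOddPart (H R : Subgroup G) : Prop where
  le : R ≤ H
  iff : ∀ g ∈ H, (g ∈ R ↔ Odd (orderOf g))

namespace IsOddPart

variable {H R : Subgroup G}

theorem odd_card (hR : IsOddPart H R) : Odd (Nat.card R) :=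
  odd_card_of_forall fun g hg => (hR.iff g (hR.le hg)).1 hg

theorem le_of_odd (hR : IsOddPart H R) {Y : Subgroup G} (hY : Y ≤ H) (hYo : Odd (Nat.card Y)) :
    Y ≤ R := fun g hg => (hR.iff g (hY hg)).2 (odd_orderOf_of_mem hYo hg)

theorem normalizer_le (hR : IsOddPart H R) : normalizer (H : Set G) ≤ normalizer (R : Set G) := by
  intro g hg
  have aux : ∀ k : G, k ∈ normalizer (H : Set G) → ∀ y ∈ R, k * y * k⁻¹ ∈ R := by
    intro k hk y hy
    refine (hR.iff _ ((mem_normalizer_iff.1 hk y).1 (hR.le hy))).2 ?_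
    have e : orderOf (k * y * k⁻¹) = orderOf y :=
      MulEquiv.orderOf_eq (MulAut.conj k) y
    rw [e]
    exact (hR.iff y (hR.le hy)).1 hy
  rw [mem_normalizer_iff]
  intro y
  refine ⟨aux g hg y, fun hy => ?_⟩
  have := aux g⁻¹ (inv_mem hg) _ hy
  simpa [mul_assoc] using this

theorem self_le_normalizer (hR : IsOddPart H R) : H ≤ normalizer (R : Set G) :=
  Subgroup.le_normalizer.trans hR.normalizer_le

end IsOddPart

theorem exists_oddPart_of_normal {H : Subgroup G} (N : Subgroup H) [N.Normal]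
    (hN : Odd (Nat.card N)) {k : ℕ} (hk : N.index = 2 ^ k) :
    IsOddPart H (N.map H.subtype) := by
  refine ⟨map_subtype_le N, fun g hg => ⟨?_, fun ho => ?_⟩⟩
  · rintro ⟨y, hy, rfl⟩
    rw [Subgroup.coe_subtype, Subgroup.orderOf_coe]
    exact odd_orderOf_of_mem hN hy
  · refine ⟨⟨g, hg⟩, ?_, rfl⟩
    have h1 : orderOf (QuotientGroup.mk' N ⟨g, hg⟩) ∣ orderOf g := by
      refine (orderOf_map_dvd _ _).trans ?_
      rw [← Subgroup.orderOf_coe]
    have h2 : orderOf (QuotientGroup.mk' N ⟨g, hg⟩) ∣ 2 ^ k := hk ▸ orderOf_dvd_natCard _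
    have h3 := Nat.eq_one_of_dvd_coprimes ((Nat.coprime_two_left.2 ho).pow_left k) h2 h1
    exact (QuotientGroup.eq_one_iff _).1 (orderOf_eq_one_iff.1 h3)

variable {S : Sylow 2 G} (hS : IsKleinFour (S : Subgroup G))
include hS

/-- From an element moving an involution of `S`, an element of order `3` cycling `S`. -/
theorem exists_cyc (h : Hyp G p) {n a : G} (hn : n ∈ normalizer ((S : Subgroup G) : Set G))
    (ha : a ∈ (S : Subgroup G)) (hmove : n * a * n⁻¹ ≠ a) :
    ∃ x ∈ zpowers n, Cyc (S : Subgroup G) x := by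
  haveI : Fact (Nat.Prime 2) := ⟨Nat.prime_two⟩
  have ha1 : a ≠ 1 := fun e => hmove (by rw [e]; group)
  have hao : orderOf a = 2 := Invol.klein_ne_one S ha hS ha1
  obtain ⟨k, m, hm, hord⟩ := Nat.exists_eq_two_pow_mul_odd (orderOf_pos n).ne'
  set x := n ^ (2 ^ k) with hx
  have hxn : x ∈ zpowers n := pow_mem (mem_zpowers n) _
  have hxN : x ∈ normalizer ((S : Subgroup G) : Set G) := pow_mem hn _
  have hnm : n ^ m ∈ (S : Subgroup G) := by
    have hp : IsPGroup 2 (zpowers (n ^ m)) := by
      refine IsPGroup.of_card (n := k) ?_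
      rw [Nat.card_zpowers, orderOf_pow, hord, Nat.gcd_eq_right (Dvd.intro_left _ rfl),
        Nat.mul_div_cancel _ hm.pos]
    have h1 := S.is_maximal' (hp.to_sup_of_normal_right' S.2
      (zpowers_le.2 (pow_mem hn m))) le_sup_right
    rw [← h1]
    exact Subgroup.mem_sup_left (mem_zpowers _)
  have hxa : ¬ Commute x a := by
    intro hc
    have hgcd : Nat.gcd (2 ^ k) m = 1 := (Nat.coprime_two_left.2 hm).pow_left k
    have hbez := Nat.gcd_eq_gcd_ab (2 ^ k) m
    rw [hgcd] at hbez
    have hn' : n = x ^ (Nat.gcdA (2 ^ k) m) * (n ^ m) ^ (Nat.gcdB (2 ^ k) m) := by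
      rw [hx, ← zpow_natCast n (2 ^ k), ← zpow_natCast n m, ← zpow_mul, ← zpow_mul, ← zpow_add,
        ← hbez, Nat.cast_one, zpow_one]
    have hcn : Commute n a := by
      rw [hn']
      exact (hc.zpow_left _).mul_left ((show Commute (n ^ m) a from comm hS hnm ha).zpow_left _)
    exact hmove (Invol.commute_iff_conj.1 hcn)
  have hxo : Odd (orderOf x) := by
    refine hm.of_dvd_nat (orderOf_dvd_of_pow_eq_one ?_)
    rw [hx, ← pow_mul, ← hord, pow_orderOf_eq_one]
  have hconjS : ∀ y ∈ (S : Subgroup G), x * y * x⁻¹ ∈ (S : Subgroup G) :=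
    fun y hy => (mem_normalizer_iff.1 hxN y).1 hy
  set a₁ := x * a * x⁻¹ with ha₁
  set a₂ := x * a₁ * x⁻¹ with ha₂
  have ha₁S : a₁ ∈ (S : Subgroup G) := hconjS a ha
  have ha₂S : a₂ ∈ (S : Subgroup G) := hconjS a₁ ha₁S
  have ha₁1 : a₁ ≠ 1 := fun e => ha1 (conj_eq_one_iff.1 e)
  have h10 : a₁ ≠ a := fun e => hxa (Invol.commute_iff_conj.2 e)
  have h21 : a₂ ≠ a₁ := fun e => h10 (mul_left_cancel (mul_right_cancel e))
  have h20 : a₂ ≠ a := by
    intro e
    have hc2 : Commute (x ^ 2) a := by
      refine Invol.commute_iff_conj.2 ?_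
      nth_rewrite 2 [← e]
      rw [ha₂, ha₁, pow_two]
      group
    obtain ⟨j, hj⟩ := exists_pow_eq_self_of_coprime (n := 2) (x := x)
      (Nat.coprime_two_left.2 hxo)
    exact hxa (by rw [← hj]; exact hc2.pow_left j)
  have h2eq : a₂ = a * a₁ := by
    rcases four_cases hS ha ha₁S ha1 ha₁1 h10.symm ha₂S with e | e | e | e
    · exact absurd (conj_eq_one_iff.1 e) ha₁1
    · exact absurd e h20
    · exact absurd e h21
    · exact e
  have h3 : x * a₂ * x⁻¹ = a := by
    rw [h2eq]
    calc x * (a * a₁) * x⁻¹ = (x * a * x⁻¹) * (x * a₁ * x⁻¹) := by group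
      _ = a₁ * a₂ := rfl
      _ = a := by rw [h2eq, comm hS ha ha₁S, ← mul_assoc, mul_self_eq hS ha₁S, one_mul]
  have hc3 : Commute (x ^ 3) a := by
    refine Invol.commute_iff_conj.2 ?_
    nth_rewrite 2 [← h3]
    rw [ha₂, ha₁]
    simp [pow_succ]
    group
  have hx3p : (x ^ 3) ^ p = 1 := h.pow_p_of_invol hao hc3.symm (hxo.of_dvd_nat (orderOf_pow_dvd 3))
  have hd : orderOf x ∣ 3 * p := orderOf_dvd_of_pow_eq_one (by rw [pow_mul]; exact hx3p)
  have hord3 : orderOf x = 3 := by
    by_cases hpd : p ∣ orderOf x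
    · rcases h.pel x hpd with e | e
      · by_cases hp3 : p = 3
        · rw [e, hp3]
        · exfalso
          obtain ⟨j, hj⟩ := exists_pow_eq_self_of_coprime (n := 3) (x := x)
            (by rw [e]; exact (Nat.coprime_primes Nat.prime_three h.hp).2 (Ne.symm hp3))
          exact hxa (by rw [← hj]; exact hc3.pow_left j)
      · rw [e] at hxo
        exact absurd hxo (by simp)
    · have h1 : orderOf x ∣ 3 :=
        (Nat.Coprime.dvd_of_dvd_mul_right ((h.hp.coprime_iff_not_dvd).2 hpd).symm hd)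
      rcases (Nat.dvd_prime Nat.prime_three).1 h1 with e | e
      · exact absurd (by rw [orderOf_eq_one_iff.1 e]; exact Commute.one_left a) hxa
      · exact e
  refine ⟨x, hxn, hord3, hxN, fun u hu hu1 => ?_⟩
  rcases four_cases hS ha ha₁S ha1 ha₁1 h10.symm hu with rfl | rfl | rfl | e
  · exact absurd rfl hu1
  · exact h10
  · exact h21
  · subst e
    rw [← h2eq, h3]
    exact h20.symm

/-- A subgroup containing `S` has an element cycling `S`, or the elements of odd order form a
normal complement to `S`. -/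
theorem cyc_or_oddPart (h : Hyp G p) {H : Subgroup G} (hSH : (S : Subgroup G) ≤ H) :
    (∃ x ∈ H, Cyc (S : Subgroup G) x) ∨
      ∃ R, IsOddPart H R ∧ H ≤ R ⊔ (S : Subgroup G) := by
  haveI : Fact (Nat.Prime 2) := ⟨Nat.prime_two⟩
  by_cases hmove : ∃ n ∈ H, n ∈ normalizer ((S : Subgroup G) : Set G) ∧
      ∃ a ∈ (S : Subgroup G), n * a * n⁻¹ ≠ a
  · obtain ⟨n, hnH, hn, a, ha, hm⟩ := hmove
    obtain ⟨x, hx, hcx⟩ := exists_cyc hS h hn ha hm
    exact Or.inl ⟨x, (zpowers_le.2 hnH) hx, hcx⟩
  · right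
    push Not at hmove
    set T : Sylow 2 H := S.subtype hSH with hT
    have hcoe : (T : Subgroup H) = (S : Subgroup G).subgroupOf H := rfl
    have hNC : normalizer ((T : Subgroup H) : Set H) ≤ centralizer ((T : Subgroup H) : Set H) := by
      intro n hn
      have hnS : (n : G) ∈ normalizer ((S : Subgroup G) : Set G) := by
        rw [mem_normalizer_iff]
        intro y
        constructor
        · intro hy
          have := (mem_normalizer_iff.1 hn ⟨y, hSH hy⟩).1 (by
            rw [hcoe, mem_subgroupOf]; exact hy)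
          rw [hcoe, mem_subgroupOf] at this
          exact this
        · intro hy
          have hyH : y ∈ H := by
            have := mul_mem (mul_mem (inv_mem n.2) (hSH hy)) n.2
            simpa [mul_assoc] using this
          have := (mem_normalizer_iff.1 hn ⟨y, hyH⟩).2 (by
            rw [hcoe, mem_subgroupOf]; exact hy)
          rw [hcoe, mem_subgroupOf] at this
          exact this
      rw [mem_centralizer_iff]
      intro a ha
      rw [SetLike.mem_coe, hcoe, mem_subgroupOf] at ha
      exact Subtype.ext (mul_inv_eq_iff_eq_mul.1 (hmove n n.2 hnS a ha)).symm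
    obtain ⟨Q, N, hN, hc⟩ := Transfer.hasNormalPComplement_of_normalizer_le_centralizer T hNC
    haveI := hN
    obtain ⟨k, hk⟩ := Q.isPGroup'.exists_card_eq
    have hodd : Odd (Nat.card N) := by
      rw [← hc.index_eq_card, ← Nat.not_even_iff_odd]
      exact fun he => Q.not_dvd_index he.two_dvd
    have hidx : N.index = 2 ^ k := by rw [hc.symm.index_eq_card, hk]
    refine ⟨N.map H.subtype, exists_oddPart_of_normal N hodd hidx, ?_⟩
    -- `N` and `T` generate `H`
    have htop : N ⊔ (T : Subgroup H) = ⊤ := by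
      refine eq_top_of_card_eq _ (Nat.dvd_antisymm (card_subgroup_dvd_card _) ?_)
      have hcop : Nat.Coprime (Nat.card N) (Nat.card (T : Subgroup H)) := by
        rw [T.card_eq_multiplicity]
        exact (Nat.coprime_two_right.2 hodd).pow_right _
      have hTQ : Nat.card (T : Subgroup H) = Nat.card (Q : Subgroup H) := by
        rw [T.card_eq_multiplicity, Q.card_eq_multiplicity]
      rw [← hc.card_mul, ← hTQ]
      exact hcop.mul_dvd_of_dvd_of_dvd (card_dvd_of_le le_sup_left) (card_dvd_of_le le_sup_right)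
    calc H = (⊤ : Subgroup H).map H.subtype := by rw [← MonoidHom.range_eq_map, range_subtype]
      _ = N.map H.subtype ⊔ ((T : Subgroup H).map H.subtype) := by rw [← htop, Subgroup.map_sup]
      _ ≤ _ := sup_le_sup_left (by rw [hcoe, map_subgroupOf_eq_of_le hSH]) _

/-- The centraliser of an involution of `S` has a normal `p`-subgroup complementing `S`. -/
theorem exists_centralizer_oddPart (h : Hyp G p) {t : G} (ht : t ∈ (S : Subgroup G))
    (ht1 : t ≠ 1) :
    ∃ R, IsOddPart (centralizer ({t} : Set G)) R ∧ IsPGroup p R ∧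
      centralizer ({t} : Set G) ≤ R ⊔ (S : Subgroup G) := by
  have hSH : (S : Subgroup G) ≤ centralizer ({t} : Set G) :=
    fun s hs => mem_centralizer_singleton_iff.2 (comm hS hs ht)
  rcases cyc_or_oddPart hS h hSH with ⟨x, hx, hcx⟩ | ⟨R, hR, hle⟩
  · exfalso
    have e := mem_centralizer_singleton_iff.1 hx
    exact hcx.move t ht ht1 (mul_inv_eq_iff_eq_mul.2 e)
  · refine ⟨R, hR, h.isPGroup_of_pow fun g hg => ?_, hle⟩
    exact h.pow_p_of_invol (Invol.klein_ne_one S ht hS ht1)
      (show Commute g t from mem_centralizer_singleton_iff.1 (hR.le hg)).symm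
      ((hR.iff g (hR.le hg)).1 hg)

end Cfsg.Agent.Spec2P
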